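import Cfsg.Agent.H6.HN.D2.Main
import Cfsg.Agent.H6.HN.C0.Main
import Cfsg.Agent.H6.HN.M.Main

set_option autoImplicit false
set_option maxRecDepth 100000
set_option Elab.async false

namespace Cfsg.H6.HN

def R2 : List (List ℕ) := R ++ C0.T.map Prod.snd

theorem hR2 : Rels ev R2 := rels_app hR (rels_of_mem_nil (C0.mem hev hR))

def sg : List (List ℕ) := [[], [1], [2], [3], [4], [5], [2,3,1], [2,4,1]]

theorem lift1 : ∃ θ : H.Grp →* Spor.HN, ∀ l, θ (H.ev l) = evS ev sg l :=
  H.lift (good_evS hev hR2 (by decide +kernel)) (rels_evS_cyc hev hR2 (by decide +kernel))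

/-- The map from the model of the subgroup. -/
noncomputable def θ : H.Grp →* Spor.HN := lift1.choose

theorem hθ : ∀ l, θ (H.ev l) = evS ev sg l := lift1.choose_spec

def sg2 : List (List ℕ) := sg ++ [[6], [7]]

theorem hθ' : ∀ l, 1 ≤ l → l < 8 → θ (H.ev l) = evS ev sg2 l :=
  fun l _ h => by rw [hθ, sg2, evS_append ev sg _ h]

theorem hyp : D2.D.Hyp (evS ev sg2) θ.range :=
  Dce.hyp_of hev hR2 (by decide +kernel) (Dce.chk_of hθ' H.ora)
    (Dce.ax_range (D := D2.D) hθ' (by decide +kernel))

theorem hU : ∀ x, D2.D.InU (evS ev sg2) θ.range θ (D2.E.map Prod.fst) x :=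
  Dce.all_inU ⟨0, by decide +kernel, by decide +kernel⟩ (D2.hT (D2.model hθ') hyp)
    (Dce.hinv (D2.model hθ') hyp (a := [1, 1]) (b := [2, 2]) (by decide +kernel))
    (X := [[1], [3], [5], [8]]) (by rw [gen_evS]; exact hX)
    (Dce.hgen (D2.model hθ') (by decide +kernel))

theorem cover : Cover θ.range ⊤ 1539000 := Dce.cover D2.E (D2.hE (D2.model hθ') hyp) hU

theorem ubH : UB θ.range 177408000 := by
  have := H.finite
  exact UB.range θ H.card

theorem ub : UB (⊤ : Subgroup Spor.HN) 273030912000000 := ubH.cover cover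

theorem finite : Finite Spor.HN := ub.top.1

theorem main : Nat.card Spor.HN = 273030912000000 ∧ Function.Injective M.μ := card_of_kq ub M.dv

theorem exact : θ.range.index = 1539000 ∧ Nat.card θ.range = 177408000 := by
  have := finite
  exact exact_of_cover cover ubH main.1

theorem θ_inj : Function.Injective θ := by
  have := H.finite
  exact injective_of_card_range θ (by rw [exact.2, H.card])

def Ws : List (List ℕ) := [[1], [3], [5]]

theorem range_eq : θ.range = gen ev Ws := by
  rw [range_eq_genS hθ H.hX]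
  exact le_antisymm (gen_le_of_cyc hev hR (W := [[1], [3], [5], [2, 3, 1]]) (by decide +kernel))
    (gen_le_of_letChk (by decide +kernel))

theorem coatom : IsCoatom θ.range :=
  Dce.isCoatom D2.E (D2.hE (D2.model hθ') hyp) hU (fun p => ⟨p, rfl⟩) exact.1 (by norm_num)
    (by decide +kernel)

theorem simple : IsSimpleGroup Spor.HN := by
  have := finite
  have : Nontrivial Spor.HN := Finite.one_lt_card_iff_nontrivial.mp (by rw [main.1]; norm_num)
  refine isSimple_of_contains hX fun N _ hN => M.kill main.2 N ?_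
  exact mem_normal_of_coatom coatom
    (fun h => hN (D2.core (D2.model hθ') hyp hU exact.1 N h)) (p := 19) (k := 1) (j := 1)
    (by norm_num) (by rw [exact.1]; norm_num) (by rw [main.1]; norm_num) (M.powx main.2)

end Cfsg.H6.HN
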