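import Cfsg.Agent.H6.Chain
import Cfsg.Prelude.Def_Spor_HN

set_option autoImplicit false
set_option maxRecDepth 100000
set_option Elab.async false

namespace Cfsg.H6.HN

def L : List (FreeGroup Spor.HN.Gen) := [1, Spor.HN.x, Spor.HN.x⁻¹, Spor.HN.y, Spor.HN.y⁻¹, Spor.HN.z, Spor.HN.t, Spor.HN.t⁻¹]

def idx : Spor.HN.Gen → ℕ
  | .x => 1
  | .y => 3
  | .z => 5
  | .t => 6

def R : List (List ℕ) := [[3,3,3,3,3,3], [1,1,3,1,1,4], [2,4,1,3,2,4,1,3,2,4,1,3], [2,3,3,1,3,3,3,2,3,3,1,3,3,3,2,3,3,1,3,3,3], [1,3,1,3,1,3,1,3,1,3,1,3,1,3,1,3], [1,3,1,3,3,3,1,3,1,3,3,3,1,3,1,3,3,3,1,3,1,3,3,3], [5,5], [5,1,5,1], [5,3,2,4,4,2,4,2,4,5,3,1,3,1,3,3,1,4,2,2], [5,4,2,4,2,4,4,4,5,3,3,3,1,3,1,3,1,4,2,4,2,4,4,4,5,3,3,3,1,3,1,3,1,4,2,4,2,4,4,4,5,3,3,3,1,3,1,3,1], [6,6,6,6,6], [2,6,1,6,6], [7,4,6,3], [5,6,5,6,5,6]]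

def X : List (List ℕ) := [[1], [3], [5], [6]]

theorem hP : presOK Spor.HN.edges Spor.HN.extra L idx 434321399574757888 R = true := by decide +kernel

theorem hidx : ∀ a, L.getD (idx a) 1 = FreeGroup.of a := by intro a; cases a <;> rfl

/-- The letters of the presented group. -/
def ev : ℕ → Spor.HN := evP Spor.HN.edges Spor.HN.extra L

theorem hev : Good ev 434321399574757888 := presOK_good hP

theorem hR : Rels ev R := presOK_rels hP hidx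

theorem hX : gen ev X = ⊤ := gen_eq_top hidx (by intro a; cases a <;> decide)

theorem lift {G : Type*} [Group G] {ev' : ℕ → G} (h : Good ev' 434321399574757888) (h' : Rels ev' R) :
    ∃ φ : Spor.HN →* G, ∀ l, φ (ev l) = ev' l := presOK_lift hP h h'

end Cfsg.H6.HN
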